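-- Stabilizer chain for HNUC; generated, checked by the kernel.
import Cfsg.Agent.Lib.Compute.TC.HNU2.Final
import Cfsg.Agent.Lib.Compute.TCChain2
set_option autoImplicit false
set_option maxRecDepth 1000000

open Cfsg.Agent.Lib.Compute.ToddCoxeterCore Cfsg.Agent.Lib.Compute.ToddCoxeterPresented Cfsg.Agent.Lib.Compute.TCFast Cfsg.Agent.Lib.Compute.TCChain

namespace Cfsg.Agent.Lib.Compute.TC.HNUC

/-- the first level of the chain -/
def next0 : List PE := [.lt (nat_lit 2)]

/-- the degree -/
def degree : ℕ := 252000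

theorem fix0 : fixAll (ev0 Cfsg.Agent.Lib.Compute.TC.HNU2.cfg) 0 next0 = true := by decide +kernel

theorem N_eq : Cfsg.Agent.Lib.Compute.TC.HNU2.cfg.N = nat_lit 252000 := by decide +kernel

/-- evaluation at the first level -/
noncomputable def evL0 : ℕ → Bool → ℕ → ℕ := evN (ev0 Cfsg.Agent.Lib.Compute.TC.HNU2.cfg) next0

/-- the orbit table of level 0 -/
noncomputable def tb0 : TT := .leaf (nat_lit 0x3000000030150220400000005011e3c020000000200e152010000000000d77e050000000400bbaa0000000000008998)
/-- level 0 -/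
noncomputable def lv0 : Lvl where
  b := nat_lit 35224
  n := nat_lit 6
  t := fun k => TT.fld tb0 (nat_lit 64) (nat_lit 255) (nat_lit 18446744073709551615) k
  next := []

/-- the chain -/
noncomputable def ls : List Lvl := [lv0]

theorem prodEq : Cfsg.Agent.Lib.Compute.TC.HNU2.cfg.N * (ls.map (·.n)).prod = 1512000 := by decide +kernel

end Cfsg.Agent.Lib.Compute.TC.HNUC
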